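import Cfsg.Agent.Lib.ToddCox.HCT.Main
set_option autoImplicit false
set_option maxRecDepth 100000
namespace Cfsg.Agent.Lib.ToddCox.HCVT

abbrev rels : Set (FreeGroup Cfsg.Agent.Lib.ToddCox.OPHC.Gen) := Cfsg.Agent.Lib.ToddCox.HCT.rels
abbrev sg : Cfsg.Agent.Lib.ToddCox.OPHC.Gen → Bool → ℕ := Cfsg.Agent.Lib.ToddCox.HCT.sg
abbrev LT : List (FreeGroup Cfsg.Agent.Lib.ToddCox.OPHC.Gen) := Cfsg.Agent.Lib.ToddCox.HCT.LT

/-- The five letters on the 32 vectors of the five-dimensional space over the field of two elements, written in binary. -/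
def tab (y x : ℕ) : ℕ :=
  Nat.xor x (Nat.shiftLeft (Nat.land (Nat.shiftRight x ([3, 4, 2, 2, 1].getD y 0)) 1) ([2, 3, 4, 0, 2].getD y 0))

end Cfsg.Agent.Lib.ToddCox.HCVT
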